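import Cfsg.Agent.Lib.J2Fus.Checks
import Cfsg.Agent.Lib.FusionSimple2.Rel

/-!
# The `2`-fusion system of the Hall–Janko group is simple
-/

set_option autoImplicit false
set_option maxRecDepth 100000

namespace Cfsg.Agent.Lib.J2Fus

open Cfsg Cfsg.Agent.Lib.J2 Cfsg.Agent.Lib.PermComp.Core TabData Cfsg.Agent.Lib.J2.Cert315
open Cfsg.Agent.Lib.FusionSimple2.Codes Cfsg.Agent.Lib.FusionSimple2.Rel
open Cfsg.Agent.Lib.FusionSimple2.Abstract

local notation "RR" => Rep 9 511 (Equiv.refl (Fin 315))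
local notation "HH" => H 9 511 (Equiv.refl (Fin 315))
local notation "PP" => Equiv.Perm (Fin 315)

theorem hm9 : (511 : ℕ) = 2 ^ 9 - 1 := by norm_num

theorem hid9 : ∀ i < 315, app 9 511 c_idc i = i :=
  (main_of_checkAll (e := Equiv.refl (Fin 315)) hT315 g_ok).2.1

theorem rep_val {c : ℕ} {g : PP} (h : RR c g) (x : Fin 315) : (g x : ℕ) = app 9 511 c x := by
  have := h x
  simp only [Equiv.refl_apply] at this
  exact this.symm

theorem wcF_rep (u : List ℕ) (hu : lettersOK u = true) : ∃ g ∈ H315, RR (wcF u) g := by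
  induction u with
  | nil => exact ⟨1, one_mem _, rep_one hid9⟩
  | cons a u ih =>
    have hu' := (allL_eq_true _ _).1 hu
    have hu2 : lettersOK u = true := (allL_eq_true _ _).2 (fun b hb => hu' b (List.mem_cons_of_mem _ hb))
    obtain ⟨g, hg, hr⟩ := ih hu2
    have ha : a < 4 := Nat.le_of_ble_eq_true (hu' a List.mem_cons_self)
    have hmem : nthN T315 a ∈ T315 := nthN_mem _ a (by simpa [T315] using ha)
    obtain ⟨x, hx⟩ := piR_gens _ hmem
    refine ⟨piR x * g, mul_mem (H_of_rep hmem hx) hg, ?_⟩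
    have : wcF (a :: u) = comp 315 9 511 (nthN T315 a) (wcF u) := by
      show force _ _ = _
      rw [force_eq]
    rw [this]
    exact hx.comp hm9 hr

theorem lettersOK_reverse {w : List ℕ} (h : lettersOK w = true) : lettersOK w.reverse = true := by
  have h' := (allL_eq_true _ _).1 h
  exact (allL_eq_true _ _).2 (fun b hb => h' b (List.mem_reverse.1 hb))

/-- A conjugate along a word. -/
theorem cj_rep {w : List ℕ} (hw : wOK w = true) {a : ℕ} {A : PP} (hA : RR a A) :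
    ∃ g ∈ H315, RR (wcF w) g ∧ RR (cjc w a) (g * A * g⁻¹) := by
  simp only [wOK, ifB_eq_true] at hw
  obtain ⟨h1, h2⟩ := hw
  obtain ⟨g, hg, hr⟩ := wcF_rep w h1
  obtain ⟨g', -, hr'⟩ := wcF_rep w.reverse (lettersOK_reverse h1)
  have hinv : RR (wcF w.reverse) g⁻¹ := Rep.inv hm9 hid9 hr (Nat.eq_of_beq_eq_true h2)
  exact ⟨g, hg, hr, (hr.comp hm9 hA).comp hm9 hinv⟩

/-! ### Conjugation on the reflections -/

/-- The point of the central involution. -/
def p86 : Fin 315 := ⟨86, by norm_num⟩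

theorem piR_conj' {g : PP} (hg : g ∈ H315) (x : Fin 315) : g * piR x * g⁻¹ = piR (g x) := by
  rw [← range_phi] at hg
  obtain ⟨a, rfl⟩ := hg
  exact piR_conj a x

theorem piR_self (x : Fin 315) : piR x x = x := by
  have h := phi_spec ⟨ref x, ref_mem x⟩ x
  simp only [mul_inv_cancel_right] at h
  exact (ref_injective h).symm

theorem rep_z : RR pc0 (piR p86) := rep_of_tab _ tab0

theorem exists_trans (x : Fin 315) : ∃ g ∈ H315, g p86 = x := by
  have key := span_good (P := fun y => ∀ hy : y < 315, ∃ g ∈ H315, g p86 = ⟨y, hy⟩) (by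
    intro c hc p hp hP hy
    obtain ⟨a, ha⟩ := piR_gens c hc
    obtain ⟨g, hg, hgp⟩ := hP hp
    refine ⟨piR a * g, mul_mem (H_of_rep hc ha) hg, Fin.ext ?_⟩
    rw [Equiv.Perm.mul_apply, hgp, rep_val ha]) spanT _ span_check (by
    intro y hy hlt
    have h := (bit_shift_one _ _).1 hy
    subst h
    exact ⟨1, one_mem _, rfl⟩)
  exact key x ((allL_eq_true _ _).1 span_all x (List.mem_range.2 x.2)) x.2

/-- The data of an entry of `F11W`. -/
theorem f11_spec {e : ℕ × List ℕ} (he : e ∈ F11W) : ∃ hp : e.1 < 315,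
    RR (cjc e.2 pc0) (piR ⟨e.1, hp⟩) ∧ (∃ g ∈ H315, g * piR p86 * g⁻¹ = piR ⟨e.1, hp⟩) ∧
    memN (cjc e.2 pc0) L0 = true ∧ app 9 511 pc0 e.1 = e.1 ∧
    (e.1 = 86 ∨ ∃ x ∈ rng315, app 9 511 (cjc e.2 pc0) x ≠ app 9 511 pc0 x) := by
  have h := (allL_eq_true _ _).1 chk_F11 e he
  simp only [f11Entry, ifB_eq_true, force_eq] at h
  obtain ⟨h1, h2, h3, h4, h5, h6⟩ := h
  have hp : e.1 < 315 := Nat.le_of_ble_eq_true h4
  obtain ⟨g, hg, hr, hc⟩ := cj_rep h1 rep_z
  have h7 : g p86 = ⟨e.1, hp⟩ := by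
    apply Fin.ext
    rw [rep_val hr]
    exact Nat.eq_of_beq_eq_true h2
  have e8 : g * piR p86 * g⁻¹ = piR ⟨e.1, hp⟩ := by
    rw [piR_conj' hg, h7]
  refine ⟨hp, ?_, ⟨g, hg, e8⟩, h5, Nat.eq_of_beq_eq_true h3, ?_⟩
  · rw [← e8]
    exact hc
  · rw [orC_eq_true] at h6
    rcases h6 with h6 | h6
    · exact Or.inl (Nat.eq_of_beq_eq_true h6)
    · obtain ⟨x, hx, h8⟩ := (anyL_eq_true _ _).1 h6
      exact Or.inr ⟨x, hx, neB_spec h8⟩

theorem mem_rng {x : ℕ} : x ∈ rng315 ↔ x < 315 := List.mem_range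

/-- The reflections are determined by their permutations. -/
theorem piR_inj : Function.Injective piR := by
  intro a b hab
  obtain ⟨g, hg, hga⟩ := exists_trans a
  have hg' : g⁻¹ ∈ H315 := inv_mem hg
  have h1 : piR (g⁻¹ b) = piR p86 := by
    rw [← piR_conj' hg', ← hab, piR_conj' hg', ← hga]
    simp
  have h2 : piR p86 (g⁻¹ b) = g⁻¹ b := by
    rw [← h1, piR_self]
  have hb : ((g⁻¹ b : Fin 315) : ℕ) ∈ F11P := by
    have h3 := (allL_eq_true _ _).1 chk_F11b (g⁻¹ b : Fin 315) (mem_rng.2 (Fin.is_lt _))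
    rw [orC_eq_true] at h3
    rcases h3 with h3 | h3
    · exfalso
      apply neB_spec h3
      rw [← rep_val rep_z, h2]
    · exact (memN_eq_true _ _).1 h3
  obtain ⟨e, he, hev⟩ := List.mem_map.1 hb
  obtain ⟨hp, hr, -, -, -, h4⟩ := f11_spec he
  have h5 : (⟨e.1, hp⟩ : Fin 315) = g⁻¹ b := Fin.ext hev
  rw [h5, h1] at hr
  have h6 : e.1 = 86 := by
    rcases h4 with h4 | ⟨x, hx, h4⟩
    · exact h4
    · exact absurd (app_eq_of_rep hr rep_z (mem_rng.1 hx)) h4
  have h7 : g⁻¹ b = p86 := by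
    rw [← h5]
    exact Fin.ext h6
  rw [← hga, ← h7]
  simp

/-! ### The Sylow subgroup -/

/-- The known elements are in the group. -/
theorem known_rep : ∀ c ∈ known, ∃ g ∈ H315, RR c g := by
  intro c hc
  rcases List.mem_append.1 hc with hc | hc
  · obtain ⟨e, he, rfl⟩ := List.mem_map.1 hc
    obtain ⟨hp, hr, -⟩ := f11_spec he
    exact ⟨_, piR_mem_H315 _, hr⟩
  · have hchain := chk_chain
    simp only [ifB_eq_true] at hchain
    obtain ⟨h1, h2, -, -, -⟩ := hchain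
    obtain ⟨ha, hb⟩ := chk_w
    obtain ⟨hpa, hra, -⟩ := f11_spec ha
    obtain ⟨hpb, hrb, -⟩ := f11_spec hb
    have hx := Rep.comp hm9 hra hrb
    have hxm : piR ⟨93, hpa⟩ * piR ⟨98, hpb⟩ ∈ H315 := mul_mem (piR_mem_H315 _) (piR_mem_H315 _)
    rcases List.mem_cons.1 hc with rfl | hc
    · obtain ⟨g, hg, -, hr⟩ := cj_rep h1 hx
      exact ⟨_, mul_mem (mul_mem hg hxm) (inv_mem hg), hr⟩
    · rw [List.mem_singleton] at hc
      subst hc
      obtain ⟨g, hg, -, hr⟩ := cj_rep h2 hx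
      exact ⟨_, mul_mem (mul_mem hg hxm) (inv_mem hg), hr⟩

theorem sgens_known : ∀ a ∈ sgens, a ∈ known := by
  have hchain := chk_chain
  simp only [ifB_eq_true] at hchain
  intro a ha
  exact (memN_eq_true _ _).1 ((allL_eq_true _ _).1 hchain.2.2.2.2 a ha)

theorem sgens_rep : ∀ a ∈ sgens, ∃ g ∈ H315, RR a g := fun a ha => known_rep a (sgens_known a ha)

/-- The Sylow subgroup. -/
noncomputable def S0 : Subgroup PP := HH sgens

theorem S0_le : S0 ≤ H315 := by
  apply (Subgroup.closure_le _).2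
  rintro g ⟨c, hc, hg⟩
  obtain ⟨g', hg', hr⟩ := sgens_rep c hc
  rwa [hg.unique hr]

theorem L0_eq : L0 = prodL 315 9 511 c_idc sgens := eqL_spec _ _ chk_L0

theorem L1 : ∀ c ∈ L0, ∃ g ∈ S0, RR c g := by
  rw [L0_eq]
  apply rep_prodL hm9 hid9
  intro a ha
  obtain ⟨g, -, hr⟩ := sgens_rep a ha
  exact ⟨g, hr⟩

theorem idc_L0 : c_idc ∈ L0 := by
  rw [L0_eq]
  have : ∀ gens : List ℕ, c_idc ∈ prodL 315 9 511 c_idc gens := by
    intro gens
    induction gens with
    | nil => simp [prodL]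
    | cons a as ih =>
      rw [prodL, dbl]
      exact List.mem_append_left _ ih
  exact this _

theorem L2 : ∀ g ∈ S0, ∃ c ∈ L0, RR c g := exists_code hm9 hid9 idc_L0 chk_clos

theorem kpts_lt : ∀ p ∈ kpts, p < 315 := by
  intro p hp
  simp only [kpts, List.mem_cons, List.not_mem_nil, or_false] at hp
  omega

theorem card_S0 : Nat.card S0 = 2 ^ 7 := by
  rw [S0, card_H_of_codes L1 L2 kpts_lt (nodupN_spec chk_key)]
  decide +kernel

theorem sgens_S0 : ∀ a ∈ sgens, ∃ A, A ∈ HH sgens ∧ RR a A := by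
  intro a ha
  obtain ⟨g, -, hr⟩ := sgens_rep a ha
  exact ⟨g, H_of_rep ha hr, hr⟩

theorem fix_S0 {s : PP} (hs : s ∈ S0) : s p86 = p86 := by
  obtain ⟨c, hc, hr⟩ := L2 s hs
  apply Fin.ext
  rw [rep_val hr]
  exact Nat.eq_of_beq_eq_true ((allL_eq_true _ _).1 chk_fix c hc)

theorem z_comm {s : PP} (hs : s ∈ S0) : piR p86 * s = s * piR p86 := by
  induction hs using Subgroup.closure_induction with
  | mem g hg =>
    obtain ⟨a, ha, hr⟩ := hg
    have h1 := Nat.eq_of_beq_eq_true ((allL_eq_true _ _).1 chk_comm a ha)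
    have h2 := rep_z.comp hm9 hr
    rw [h1] at h2
    exact h2.unique (hr.comp hm9 rep_z)
  | one => simp
  | mul a b _ _ ha hb =>
    exact Commute.mul_right ha hb
  | inv a _ ha =>
    exact Commute.inv_right ha

/-! ### The normal subgroup `Q` -/

/-- The fixed points of the central involution. -/
def F11S : Set (Fin 315) := {x | (x : ℕ) ∈ F11P}

/-- The subgroup `Q`. -/
noncomputable def Q0 : Subgroup PP := Subgroup.closure (piR '' F11S)

theorem piR_mem_S0 {x : Fin 315} (hx : x ∈ F11S) : piR x ∈ S0 := by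
  obtain ⟨e, he, hev⟩ := List.mem_map.1 hx
  obtain ⟨hp, hr, -, h1, -⟩ := f11_spec he
  obtain ⟨g, hg, hr'⟩ := L1 _ ((memN_eq_true _ _).1 h1)
  have h5 : (⟨e.1, hp⟩ : Fin 315) = x := Fin.ext hev
  rw [h5] at hr
  rwa [hr.unique hr']

theorem Q0_le : Q0 ≤ S0 := by
  apply (Subgroup.closure_le _).2
  rintro _ ⟨x, hx, rfl⟩
  exact piR_mem_S0 hx

theorem fix_F11 {x : Fin 315} (hx : x ∈ F11S) : piR p86 x = x := by
  obtain ⟨e, he, hev⟩ := List.mem_map.1 hx
  obtain ⟨hp, -, -, -, h1, -⟩ := f11_spec he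
  apply Fin.ext
  rw [rep_val rep_z, ← hev]
  exact h1

theorem mem_F11 {x : Fin 315} (hx : piR p86 x = x) : x ∈ F11S := by
  have h3 := (allL_eq_true _ _).1 chk_F11b x (mem_rng.2 (Fin.is_lt _))
  rw [orC_eq_true] at h3
  rcases h3 with h3 | h3
  · exfalso
    apply neB_spec h3
    rw [← rep_val rep_z, hx]
  · exact (memN_eq_true _ _).1 h3

/-- Conjugation of a generated subgroup. -/
theorem conj_closure_mem {X : Set PP} {K : Subgroup PP} {g : PP} (h : ∀ x ∈ X, g * x * g⁻¹ ∈ K)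
    {q : PP} (hq : q ∈ Subgroup.closure X) : g * q * g⁻¹ ∈ K := by
  induction hq using Subgroup.closure_induction with
  | mem x hx => exact h x hx
  | one => simp
  | mul a b _ _ ha hb =>
    have e : g * (a * b) * g⁻¹ = (g * a * g⁻¹) * (g * b * g⁻¹) := by group
    rw [e]
    exact K.mul_mem ha hb
  | inv a _ ha =>
    have e : g * a⁻¹ * g⁻¹ = (g * a * g⁻¹)⁻¹ := by group
    rw [e]
    exact K.inv_mem ha

/-- Elements fixing the base point normalize `Q`. -/
theorem norm_Q0 {g : PP} (hg : g ∈ H315) (hf : g p86 = p86) : ∀ q ∈ Q0, g * q * g⁻¹ ∈ Q0 := by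
  intro q hq
  refine conj_closure_mem ?_ hq
  rintro _ ⟨x, hx, rfl⟩
  rw [piR_conj' hg]
  apply Subgroup.subset_closure
  refine ⟨_, mem_F11 ?_, rfl⟩
  have h1 : piR p86 * g = g * piR p86 := by
    have := piR_conj' hg p86
    rw [hf, mul_inv_eq_iff_eq_mul] at this
    exact this.symm
  have h2 := DFunLike.congr_fun h1 x
  simp only [Equiv.Perm.mul_apply] at h2
  rw [h2, fix_F11 hx]

/-- Weak closure. -/
theorem weak_Q0 {g : PP} (hg : g ∈ H315) (hS : ∀ q ∈ Q0, g * q * g⁻¹ ∈ S0) :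
    ∀ q ∈ Q0, g * q * g⁻¹ ∈ Q0 := by
  intro q hq
  refine conj_closure_mem ?_ hq
  rintro _ ⟨x, hx, rfl⟩
  have h1 := hS _ (Subgroup.subset_closure ⟨x, hx, rfl⟩)
  rw [piR_conj' hg] at h1 ⊢
  apply Subgroup.subset_closure
  refine ⟨_, mem_F11 ?_, rfl⟩
  have h2 := z_comm h1
  have h3 := piR_conj' (piR_mem_H315 p86) (g x)
  rw [h2, mul_inv_cancel_right] at h3
  exact (piR_inj h3).symm

/-! ### Strong closure -/

theorem closed_S0 (T : Subgroup PP) (hT : T ≤ S0) (hne : T ≠ ⊥)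
    (hcl : ∀ x ∈ T, ∀ g ∈ H315, g * x * g⁻¹ ∈ S0 → g * x * g⁻¹ ∈ T) : T = S0 := by
  obtain ⟨Z, hZ, hrZ⟩ := z_mem hid9 (pts := rng315) (fun p hp => mem_rng.1 hp) L2 sgens_S0 card_S0
    chk_cent hT hne (fun x hx r hr => hcl x hx r (S0_le hr)
      (S0.mul_mem (S0.mul_mem hr (hT hx)) (S0.inv_mem hr)))
  obtain rfl : Z = piR p86 := hrZ.unique rep_z
  have hF : ∀ e ∈ F11W, ∀ hp : e.1 < 315, piR ⟨e.1, hp⟩ ∈ T := by
    intro e he hp
    obtain ⟨_, -, ⟨g, hg, hc⟩, -⟩ := f11_spec he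
    have hx : (⟨e.1, hp⟩ : Fin 315) ∈ F11S := List.mem_map.2 ⟨e, he, rfl⟩
    have h1 := piR_mem_S0 hx
    rw [← hc] at h1 ⊢
    exact hcl _ hZ g hg h1
  have hknown : ∀ c ∈ known, ∃ A ∈ T, RR c A := by
    intro c hc
    rcases List.mem_append.1 hc with hc | hc
    · obtain ⟨e, he, rfl⟩ := List.mem_map.1 hc
      obtain ⟨hp, hr, -⟩ := f11_spec he
      exact ⟨_, hF e he hp, hr⟩
    · have hchain := chk_chain
      simp only [ifB_eq_true] at hchain
      obtain ⟨h1, h2, h3, h4, -⟩ := hchain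
      obtain ⟨ha, hb⟩ := chk_w
      obtain ⟨hpa, hra, -⟩ := f11_spec ha
      obtain ⟨hpb, hrb, -⟩ := f11_spec hb
      have hx := Rep.comp hm9 hra hrb
      have hxT : piR ⟨93, hpa⟩ * piR ⟨98, hpb⟩ ∈ T := T.mul_mem (hF _ ha hpa) (hF _ hb hpb)
      have step : ∀ {w : List ℕ}, wOK w = true → memN (cjc w xc) L0 = true →
          ∃ A ∈ T, RR (cjc w xc) A := by
        intro w hw hmem
        obtain ⟨g, hg, -, hr⟩ := cj_rep hw hx
        obtain ⟨B, hB, hrB⟩ := L1 _ ((memN_eq_true _ _).1 hmem)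
        have e1 : g * (piR ⟨93, hpa⟩ * piR ⟨98, hpb⟩) * g⁻¹ = B := hr.unique hrB
        refine ⟨_, hcl _ hxT g hg ?_, hr⟩
        rw [e1]
        exact hB
      rcases List.mem_cons.1 hc with rfl | hc
      · exact step h1 h3
      · rw [List.mem_singleton] at hc
        subst hc
        exact step h2 h4
  apply le_antisymm hT
  apply (Subgroup.closure_le _).2
  rintro g ⟨c, hc, hg⟩
  obtain ⟨A, hA, hr⟩ := hknown c (sgens_known c hc)
  rwa [hg.unique hr]

/-! ### The elements of order five and three -/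

theorem ex_y1 : ∃ g ∈ H315, RR y1c g := by
  rw [chk_y1]
  exact wcF_rep _ ((ifB_eq_true _ _).1 chk_yw).1

theorem ex_y2 : ∃ g ∈ H315, RR y2c g := by
  rw [chk_y2]
  exact wcF_rep _ ((ifB_eq_true _ _).1 chk_yw).2

/-- An element of order five. -/
noncomputable def Y1 : PP := Classical.choose ex_y1
/-- An element of order five. -/
noncomputable def Y2 : PP := Classical.choose ex_y2

theorem Y1_mem : Y1 ∈ H315 := (Classical.choose_spec ex_y1).1
theorem Y2_mem : Y2 ∈ H315 := (Classical.choose_spec ex_y2).1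
theorem Y1_rep : RR y1c Y1 := (Classical.choose_spec ex_y1).2
theorem Y2_rep : RR y2c Y2 := (Classical.choose_spec ex_y2).2

/-- An element of order three. -/
noncomputable def T0 : PP := Y1 * Y2

theorem T0_mem : T0 ∈ H315 := mul_mem Y1_mem Y2_mem

theorem T0_rep : RR tc T0 := by
  rw [Nat.eq_of_beq_eq_true chk_t]
  exact Y1_rep.comp hm9 Y2_rep

theorem T0_cube : T0 * (T0 * T0) = 1 :=
  Rep.eq_one hid9 (T0_rep.comp hm9 (T0_rep.comp hm9 T0_rep)) (Nat.eq_of_beq_eq_true chk_t3)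

theorem pow5 {c : ℕ} {g : PP} (hc : RR c g) (h : Nat.beq (p5 c) c_idc = true) : g ^ 5 = 1 := by
  have h1 := Rep.eq_one hid9 (hc.comp hm9 (hc.comp hm9 (hc.comp hm9 (hc.comp hm9 hc))))
    (Nat.eq_of_beq_eq_true h)
  rw [← h1]
  simp [pow_succ, mul_assoc]

theorem Y1_pow : Y1 ^ 5 = 1 := pow5 Y1_rep ((ifB_eq_true _ _).1 chk_y5).1
theorem Y2_pow : Y2 ^ 5 = 1 := pow5 Y2_rep ((ifB_eq_true _ _).1 chk_y5).2

theorem Y1_fix : Y1 p86 = p86 := by
  apply Fin.ext
  rw [rep_val Y1_rep]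
  exact Nat.eq_of_beq_eq_true ((ifB_eq_true _ _).1 chk_fix').1

theorem Y2_fix : Y2 p86 = p86 := by
  apply Fin.ext
  rw [rep_val Y2_rep]
  exact Nat.eq_of_beq_eq_true ((ifB_eq_true _ _).1 chk_fix').2

theorem T0_fix : T0 p86 = p86 := by
  show Y1 (Y2 p86) = p86
  rw [Y2_fix, Y1_fix]

theorem T0_inv_rep : RR (comp 315 9 511 tc tc) T0⁻¹ :=
  Rep.inv hm9 hid9 T0_rep (by
    have := Nat.eq_of_beq_eq_true chk_t3
    have h2 : comp 315 9 511 (comp 315 9 511 tc tc) tc = comp 315 9 511 tc (comp 315 9 511 tc tc) := by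
      decide +kernel
    rw [h2, this])

theorem T0_norm_S0 {s : PP} (hs : s ∈ S0) : T0 * s * T0⁻¹ ∈ S0 := by
  refine conj_closure_mem ?_ hs
  rintro g ⟨a, ha, hr⟩
  have h1 := (memN_eq_true _ _).1 ((allL_eq_true _ _).1 chk_tS a ha)
  obtain ⟨B, hB, hrB⟩ := L1 _ h1
  have := ((T0_rep.comp hm9 hr).comp hm9 T0_inv_rep).unique hrB
  rw [this]
  exact hB

theorem T0_not_mem : T0 ∉ S0 := by
  intro h
  obtain ⟨c, hc, hr⟩ := L2 _ h
  exact neB_spec ((allL_eq_true _ _).1 chk_tnot c hc) (key_eq_of_rep hr T0_rep kpts_lt)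

/-! ### The normalizer of the Sylow subgroup -/

/-- `g` normalizes `S0`. -/
def NormS (g : PP) : Prop := ∀ s ∈ S0, g * s * g⁻¹ ∈ S0

theorem NormS.inv {g : PP} (h : NormS g) : NormS g⁻¹ := conj_inv_mem h

theorem NormS.fix {g : PP} (h : NormS g) : g p86 = p86 := by
  by_contra hne
  have hx : ((g p86 : Fin 315) : ℕ) ≠ 86 := fun e => hne (Fin.ext e)
  have h1 := (allL_eq_true _ _).1 chk_uniq (g p86 : Fin 315) (mem_rng.2 (Fin.is_lt _))
  rw [orC_eq_true] at h1
  rcases h1 with h1 | h1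
  · exact hx (Nat.eq_of_beq_eq_true h1)
  · obtain ⟨a, ha, h2⟩ := (anyL_eq_true _ _).1 h1
    obtain ⟨A, hA, hr⟩ := sgens_S0 a ha
    apply neB_spec h2
    have h3 := fix_S0 (h.inv A hA)
    have h4 : g⁻¹ * A * g⁻¹⁻¹ = g⁻¹ * A * g := by simp
    rw [h4] at h3
    have h3' : g⁻¹ (A (g p86)) = p86 := h3
    rw [Equiv.Perm.inv_eq_iff_eq] at h3'
    rw [← rep_val hr, h3']

/-- The point `105`. -/
def p105 : Fin 315 := ⟨105, by norm_num⟩
/-- The point `293`. -/
def p293 : Fin 315 := ⟨293, by norm_num⟩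

theorem orbit_105 {s : PP} (hs : s ∈ S0) : s p105 = p105 ∨ s p105 = p293 := by
  obtain ⟨c, hc, hr⟩ := L2 s hs
  have h1 := (allL_eq_true _ _).1 chk_B1 c hc
  rw [orC_eq_true] at h1
  rcases h1 with h1 | h1
  · left
    apply Fin.ext
    rw [rep_val hr]
    exact Nat.eq_of_beq_eq_true h1
  · right
    apply Fin.ext
    rw [rep_val hr]
    exact Nat.eq_of_beq_eq_true h1

theorem NormS.block {g : PP} (h : NormS g) : g p105 = p105 ∨ g p105 = p293 := by
  set x : Fin 315 := g p105 with hxdef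
  have hfx := h.fix
  have hx86 : (x : ℕ) ≠ 86 := by
    intro e
    have h1 : g p105 = g p86 := by
      rw [hfx]
      exact Fin.ext e
    have := g.injective h1
    exact absurd this (by decide)
  have h1 := (allL_eq_true _ _).1 chk_B2 x (mem_rng.2 (Fin.is_lt _))
  simp only [orC_eq_true] at h1
  rcases h1 with h1 | h1 | h1 | h1
  · exact absurd (Nat.eq_of_beq_eq_true h1) hx86
  · left
    exact Fin.ext (Nat.eq_of_beq_eq_true h1)
  · right
    exact Fin.ext (Nat.eq_of_beq_eq_true h1)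
  · exfalso
    obtain ⟨c, hc, h2⟩ := (anyL_eq_true _ _).1 h1
    simp only [force_eq, ifB_eq_true] at h2
    obtain ⟨h3, h4⟩ := h2
    obtain ⟨d, hd, h5⟩ := (anyL_eq_true _ _).1 h4
    simp only [ifB_eq_true] at h5
    obtain ⟨h6, h7⟩ := h5
    obtain ⟨C, hC, hrC⟩ := L1 c hc
    obtain ⟨D, hD, hrD⟩ := L1 d hd
    have image : ∀ s ∈ S0, s x = x ∨ s x = g p293 := by
      intro s hs
      have h8 := h.inv s hs
      have h9 : g⁻¹ * s * g⁻¹⁻¹ = g⁻¹ * s * g := by simp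
      rw [h9] at h8
      have h10 : s x = g ((g⁻¹ * s * g) p105) := by
        simp [hxdef]
      rw [h10]
      rcases orbit_105 h8 with h11 | h11
      · left
        rw [h11]
      · right
        rw [h11]
    have hCx : C x ≠ x := by
      intro e
      apply neB_spec h3
      rw [← rep_val hrC, e]
    have hDx : D x ≠ x := by
      intro e
      apply neB_spec h6
      rw [← rep_val hrD, e]
    have hCD : C x ≠ D x := by
      intro e
      apply neB_spec h7
      rw [← rep_val hrC, ← rep_val hrD, e]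
    rcases image C hC with h8 | h8
    · exact hCx h8
    · rcases image D hD with h9 | h9
      · exact hDx h9
      · exact hCD (h8.trans h9.symm)

/-- The normalizer as a subgroup of the permutation group. -/
noncomputable def NS : Subgroup H315 where
  carrier := {g | NormS (g : PP)}
  one_mem' := by
    intro s hs
    simpa using hs
  mul_mem' := by
    intro a b ha hb s hs
    have := ha _ (hb s hs)
    have e : ((a * b : H315) : PP) * s * ((a * b : H315) : PP)⁻¹ =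
        (a : PP) * ((b : PP) * s * (b : PP)⁻¹) * (a : PP)⁻¹ := by
      simp only [Subgroup.coe_mul]
      group
    rw [e]
    exact this
  inv_mem' := by
    intro a ha
    exact NormS.inv ha

theorem mcode_rep (k : ℕ) : RR (mcode k) (Y1 ^ k) := by
  induction k with
  | zero => exact rep_one hid9
  | succ k ih =>
    rw [pow_succ']
    exact Y1_rep.comp hm9 ih

theorem Y1_pow_fix (k : ℕ) : (Y1 ^ k) p86 = p86 := by
  induction k with
  | zero => rfl
  | succ k ih =>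
    rw [pow_succ', Equiv.Perm.mul_apply, ih, Y1_fix]

theorem m_sep {k l : ℕ} (hk : k < 5) (hl : l < 5) (h : k ≠ l) :
    (Y1 ^ l) p105 ≠ (Y1 ^ k) p105 ∧ (Y1 ^ l) p105 ≠ (Y1 ^ k) p293 := by
  have h1 := (allL_eq_true _ _).1 ((allL_eq_true _ _).1 chk_m k (List.mem_range.2 hk)) l
    (List.mem_range.2 hl)
  rw [orC_eq_true, ifB_eq_true] at h1
  rcases h1 with h1 | ⟨h1, h2⟩
  · exact absurd (Nat.eq_of_beq_eq_true h1) h
  · constructor
    · intro e
      apply neB_spec h1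
      have h3 := congrArg (fun y : Fin 315 => (y : ℕ)) e
      simp only [rep_val (mcode_rep l), rep_val (mcode_rep k)] at h3
      exact h3
    · intro e
      apply neB_spec h2
      have h3 := congrArg (fun y : Fin 315 => (y : ℕ)) e
      simp only [rep_val (mcode_rep l), rep_val (mcode_rep k)] at h3
      exact h3

theorem card_NS_le : Nat.card NS ≤ 384 := by
  have : Finite H315 := inferInstance
  choose gp hgp hgpe using exists_trans
  let f : Fin 315 × Fin 5 → H315 := fun i =>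
    ⟨gp i.1 * Y1 ^ (i.2 : ℕ), mul_mem (hgp _) (pow_mem Y1_mem _)⟩
  have hsep : ∀ i j, (f i)⁻¹ * f j ∈ NS → i = j := by
    rintro ⟨p, k⟩ ⟨q, l⟩ hu
    have hN : NormS ((gp p * Y1 ^ (k : ℕ))⁻¹ * (gp q * Y1 ^ (l : ℕ))) := hu
    have h1 := hN.fix
    simp only [Equiv.Perm.mul_apply, Y1_pow_fix] at h1
    have h2 : gp q p86 = gp p p86 := by
      rw [Equiv.Perm.inv_eq_iff_eq] at h1
      rw [h1, Equiv.Perm.mul_apply, Y1_pow_fix]
    have hpq : p = q := by
      rw [hgpe, hgpe] at h2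
      exact h2.symm
    subst hpq
    have hkl : k = l := by
      by_contra hne
      have hne' : (k : ℕ) ≠ l := fun e => hne (Fin.ext e)
      have h3 := hN.block
      have e : (gp p * Y1 ^ (k : ℕ))⁻¹ * (gp p * Y1 ^ (l : ℕ)) = (Y1 ^ (k : ℕ))⁻¹ * Y1 ^ (l : ℕ) := by
        group
      rw [e] at h3
      obtain ⟨h4, h5⟩ := m_sep k.2 l.2 hne'
      rcases h3 with h3 | h3
      · apply h4
        have h6 := congrArg (Y1 ^ (k : ℕ)) h3
        simpa using h6
      · apply h5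
        have h6 := congrArg (Y1 ^ (k : ℕ)) h3
        simpa using h6
    rw [hkl]
  have h1 := card_le_of_sep NS f hsep
  rw [Nat.card_prod, Nat.card_fin, Nat.card_fin, card_H315] at h1
  omega

theorem pow_T0_norm (i : ℕ) : NormS (T0 ^ i) := conj_pow_mem (fun _ hs => T0_norm_S0 hs) i

theorem T0_four : T0 ^ 4 = T0 := by
  have : T0 ^ 4 = T0 * (T0 * (T0 * T0)) := by simp [pow_succ, mul_assoc]
  rw [this, T0_cube, mul_one]

theorem T0_sq_not_mem : T0 ^ 2 ∉ S0 := by
  intro h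
  have h1 : (T0 ^ 2) ^ 2 ∈ S0 := S0.pow_mem h 2
  rw [← pow_mul, show 2 * 2 = 4 from rfl, T0_four] at h1
  exact T0_not_mem h1

theorem T0_pow_three : T0 ^ 3 = 1 := by
  have : T0 ^ 3 = T0 * (T0 * T0) := by simp [pow_succ, mul_assoc]
  rw [this, T0_cube]

theorem exists_of_norm {g : PP} (hg : g ∈ H315) (hN : NormS g) :
    ∃ i : ℕ, i < 3 ∧ ∃ s ∈ S0, g = T0 ^ i * s := by
  let f : Fin 3 × S0 → NS := fun i => ⟨⟨T0 ^ (i.1 : ℕ) * (i.2 : PP),
      mul_mem (pow_mem T0_mem _) (S0_le i.2.2)⟩, by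
    intro s hs
    have h1 := pow_T0_norm (i.1 : ℕ) _ (S0.mul_mem (S0.mul_mem i.2.2 hs) (S0.inv_mem i.2.2))
    have e : (T0 ^ (i.1 : ℕ) * (i.2 : PP)) * s * (T0 ^ (i.1 : ℕ) * (i.2 : PP))⁻¹ =
        T0 ^ (i.1 : ℕ) * ((i.2 : PP) * s * (i.2 : PP)⁻¹) * (T0 ^ (i.1 : ℕ))⁻¹ := by group
    show (T0 ^ (i.1 : ℕ) * (i.2 : PP)) * s * (T0 ^ (i.1 : ℕ) * (i.2 : PP))⁻¹ ∈ S0
    rw [e]
    exact h1⟩
  have hf : Function.Injective f := by
    rintro ⟨i, s⟩ ⟨j, s'⟩ h
    have h1 : T0 ^ (i : ℕ) * (s : PP) = T0 ^ (j : ℕ) * (s' : PP) :=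
      congrArg (fun x : NS => ((x : H315) : PP)) h
    have key : ∀ a b : ℕ, b < 3 → a < b → ∀ u v : S0, T0 ^ a * (u : PP) ≠ T0 ^ b * (v : PP) := by
      intro a b hb hab u v e
      have h2 : T0 ^ (b - a) ∈ S0 := by
        have h3 : T0 ^ (b - a) = (u : PP) * (v : PP)⁻¹ := by
          have h4 : T0 ^ b = T0 ^ a * T0 ^ (b - a) := by
            rw [← pow_add]
            congr 1
            omega
          rw [h4, mul_assoc] at e
          have h5 := mul_left_cancel e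
          rw [h5]
          group
        rw [h3]
        exact S0.mul_mem u.2 (S0.inv_mem v.2)
      have h6 : b - a = 1 ∨ b - a = 2 := by omega
      rcases h6 with h6 | h6
      · rw [h6, pow_one] at h2
        exact T0_not_mem h2
      · rw [h6] at h2
        exact T0_sq_not_mem h2
    have hij : (i : ℕ) = j := by
      by_contra hne
      rcases Nat.lt_or_gt_of_ne hne with h2 | h2
      · exact key _ _ j.2 h2 s s' h1
      · exact key _ _ i.2 h2 s' s h1.symm
    have hij' : i = j := Fin.ext hij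
    subst hij'
    have h3 : (s : PP) = s' := mul_left_cancel h1
    rw [Subtype.ext h3]
  have hb := hf.bijective_of_nat_card_le (by
    rw [Nat.card_prod, Nat.card_fin, card_S0]
    exact card_NS_le.trans (by norm_num))
  obtain ⟨⟨i, s⟩, hs⟩ := hb.2 ⟨⟨g, hg⟩, hN⟩
  refine ⟨i, i.2, s, s.2, ?_⟩
  exact (congrArg (fun x : NS => ((x : H315) : PP)) hs).symm

theorem conj_T0_unique {g : PP} (hg : g ∈ H315) (hN : NormS g)
    (hq : ∀ q ∈ Q0, g * q * g⁻¹ = T0 * q * T0⁻¹) : ∃ s ∈ S0, g = T0 * s := by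
  obtain ⟨i, hi, s, hs, rfl⟩ := exists_of_norm hg hN
  have hF : ∀ x ∈ F11S, (T0 ^ i * s) x = T0 x := by
    intro x hx
    have h1 := hq _ (Subgroup.subset_closure ⟨x, hx, rfl⟩)
    rw [piR_conj' hg, piR_conj' T0_mem] at h1
    exact piR_inj h1
  obtain ⟨c, hc, hr⟩ := L2 s hs
  have h2 := (allL_eq_true _ _).1 chk_C c hc
  rw [ifB_eq_true] at h2
  obtain ⟨h3, h4⟩ := h2
  have hi3 : i = 0 ∨ i = 1 ∨ i = 2 := by omega
  have mkpt : ∀ {p : ℕ}, p ∈ F11P → p < 315 := by
    intro p hp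
    obtain ⟨e, he, rfl⟩ := List.mem_map.1 hp
    exact (f11_spec he).1
  rcases hi3 with rfl | rfl | rfl
  · exfalso
    obtain ⟨p, hp, h5⟩ := (anyL_eq_true _ _).1 h3
    apply neB_spec h5
    have h6 := hF ⟨p, mkpt hp⟩ hp
    have h7 := congrArg (fun y : Fin 315 => (y : ℕ)) h6
    simp only [pow_zero, one_mul] at h7
    rw [rep_val hr, rep_val T0_rep] at h7
    exact h7
  · exact ⟨s, hs, by rw [pow_one]⟩
  · exfalso
    obtain ⟨p, hp, h5⟩ := (anyL_eq_true _ _).1 h4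
    apply neB_spec h5
    have h6 := hF ⟨p, mkpt hp⟩ hp
    have h7 : T0 (T0 (s ⟨p, mkpt hp⟩)) = T0 ⟨p, mkpt hp⟩ := by
      rw [← h6, pow_two]
      rfl
    have h8 := T0.injective h7
    have h9 := congrArg (fun y : Fin 315 => (y : ℕ)) h8
    simp only at h9
    rw [rep_val T0_rep, rep_val hr] at h9
    exact h9

/-- The data of the criterion for `J₂`. -/
theorem relData : RelData H315 S0 Q0 T0 Y1 Y2 where
  hne := by
    intro h
    have := card_S0
    rw [h, Subgroup.card_bot] at this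
    omega
  hSM := S0_le
  hT := closed_S0
  hQS := Q0_le
  hSQ := fun s hs => norm_Q0 (S0_le hs) (fix_S0 hs)
  hQw := fun g hg hS => weak_Q0 hg hS
  htM := T0_mem
  htS := fun s hs => T0_norm_S0 hs
  htQ := norm_Q0 T0_mem T0_fix
  hN := fun g hg hn => exists_of_norm hg hn
  hC := fun g hg hn hq => conj_T0_unique hg hn hq
  hy₁M := Y1_mem
  hy₂M := Y2_mem
  hy₁ := Y1_pow
  hy₂ := Y2_pow
  hy₁Q := norm_Q0 Y1_mem Y1_fix
  hy₂Q := norm_Q0 Y2_mem Y2_fix
  ht := rfl

/-- The `2`-fusion system of a group isomorphic to `J₂` is simple. -/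
theorem simple_J2 {G : Type*} [Group G] [Finite G] (hG : Cfsg.Spor.IsoJ2 G) (S : Sylow 2 G) :
    (groupFusionSystem (S : Subgroup G)).IsSimple 2 := by
  obtain ⟨f⟩ := hG
  exact simple_of_rel relData (k := 7) (m := 4725) card_S0 (by rw [card_H315]; norm_num) (by decide)
    (f.trans j2Equiv) S

end Cfsg.Agent.Lib.J2Fus
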